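import Mathlib.AlgebraicGeometry.Morphisms.FiniteType
import Mathlib.AlgebraicGeometry.Noetherian
import Groth.Agent.S0598
import Groth.Agent.S0599
import Groth.Agent.Ega4A.PFibre
import Groth.Agent.CycB.PidRT

/-!
# Local rings of schemes locally of finite type over a field are local G-rings
-/

set_option autoImplicit false

universe u

open CategoryTheory AlgebraicGeometry IsLocalRing

namespace Groth.Agent.Gaga.H987.StalkGRing

/-- Fields are G-rings. -/
theorem isGRing_field (k : Type u) [Field k] : CAlg.IsGRing k := by
  have h : IsAdicComplete (IsLocalRing.maximalIdeal k) k := by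
    rw [IsLocalRing.maximalIdeal_eq_bot]
    infer_instance
  exact Groth.Agent.S0598.result k

/-- Finite type algebras over fields are G-rings. -/
theorem isGRing_of_finiteType_field (k : Type u) [Field k] (S : Type u) [CommRing S] [Algebra k S]
    [Algebra.FiniteType k S] : CAlg.IsGRing S :=
  Groth.Agent.S0599.result k (isGRing_field k) S

/-- The local rings of the spectrum of a field are G-rings. -/
theorem isGRing_stalk_spec_field (k : Type u) [Field k] (x : Spec (CommRingCat.of k)) :
    CAlg.IsGRing ((Spec (CommRingCat.of k)).presheaf.stalk x) := by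
  let R : CommRingCat.{u} := CommRingCat.of k
  let f : R →+* (Spec R).presheaf.stalk x := Groth.Agent.CycB.PidRT.toStalk R x
  let _ : Algebra R ((Spec R).presheaf.stalk x) := f.toAlgebra
  have hloc : IsLocalization.AtPrime ((Spec R).presheaf.stalk x) x.asIdeal :=
    Groth.Agent.CycB.PidRT.isLocalization_toStalk R x
  have hsurj : Function.Surjective f := by
    intro y
    obtain ⟨⟨a, s⟩, hs⟩ := IsLocalization.surj x.asIdeal.primeCompl y
    have hs0 : (s.1 : k) ≠ 0 := fun h => s.2 (by
      have h' : s.1 = 0 := h
      rw [h']
      exact x.asIdeal.zero_mem)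
    refine ⟨(show k from a) * (show k from s.1)⁻¹, ?_⟩
    have hu : IsUnit (algebraMap R ((Spec R).presheaf.stalk x) s.1) :=
      IsLocalization.map_units _ s
    rw [← hu.mul_left_inj, hs]
    change f _ * f _ = f _
    rw [← map_mul]
    congr 1
    exact inv_mul_cancel_right₀ hs0 _
  exact Groth.Agent.Ega4B.GFTQuot.isGRing_of_surjective f hsurj (isGRing_field k)

/-- For `X` locally of finite type over a field, the completion map of every local ring of `X` is a
regular homomorphism. -/
theorem isRegularHom_cpl_stalk (k : Type u) [Field k] {X : Scheme.{u}}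
    (f : X ⟶ Spec (CommRingCat.of k)) [LocallyOfFiniteType f] (x : X) :
    CAlg.IsRegularHom (X.presheaf.stalk x) (EGA4.Cpl (X.presheaf.stalk x)) := by
  let R := (Spec (CommRingCat.of k)).presheaf.stalk (f x)
  let S := X.presheaf.stalk x
  let _ : Algebra R S := (f.stalkMap x).hom.toAlgebra
  have hess : Algebra.EssFiniteType R S := LocallyOfFiniteType.stalkMap f x
  have hR : CAlg.IsGRing R := isGRing_stalk_spec_field k (f x)
  have hRN : IsNoetherianRing R := hR.1
  have hSN : IsNoetherianRing S := Groth.Agent.CalgB.RegHom6.isNoetherianRing_of_essFiniteType R S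
  have h1 := Groth.Agent.Ega4A.PFibre.isRegularHom_cpl_of_essFiniteType (R := R) (S := S)
    (fun C _ _ hC => Groth.Agent.S0599.result R hR C) (maximalIdeal S)
  exact Groth.Agent.Ega4A.PFibre.isRegularHom_cpl_of_ringEquiv
    (Groth.Agent.Ega4A.RkBasic.localizationMaximalEquiv S).symm.toRingEquiv h1

end Groth.Agent.Gaga.H987.StalkGRing
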